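import Mathlib
import Cfsg.Agent.H342.Co2H3

/-!
# The group `2^{1+4}.A₅` acting on a symplectic space of order `3⁴`: elements of order three, transitivity
-/

set_option autoImplicit false

namespace Cfsg.Agent.H342.SympLoc

open Subgroup

variable {Γ W A : Type*} [Group Γ] [CommGroup W] [CommGroup A]

/-- a group of order nine is generated by a subgroup of order three and any further element -/
theorem decomp_nine {G : Type*} [Group G] {P F : Subgroup G} (h9 : Nat.card P = 9) (hF : F ≤ P) (h3 : Nat.card F = 3)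
    {v : G} (hv : v ∈ P) (hvF : v ∉ F) (hc : ∀ a ∈ P, ∀ b ∈ P, a * b = b * a) {p : G} (hp : p ∈ P) :
    ∃ f ∈ F, ∃ k : ℤ, p = f * v ^ k := by
  have : Finite P := Nat.finite_of_card_ne_zero (by rw [h9]; norm_num)
  let F' := F.subgroupOf P
  have hc' : ∀ a b : P, a * b = b * a := fun a b => Subtype.ext (hc a a.2 b b.2)
  have hn : F'.Normal := ⟨fun n hn g => by rw [hc' g n, mul_inv_cancel_right]; exact hn⟩
  have h1 : F' ⊔ zpowers (⟨v, hv⟩ : P) = ⊤ := by
    apply Subgroup.eq_top_of_card_eq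
    have h2 : Nat.card F' = 3 := by
      rw [Nat.card_congr (Subgroup.subgroupOfEquivOfLe hF).toEquiv, h3]
    have h3 : 3 ∣ Nat.card (F' ⊔ zpowers (⟨v, hv⟩ : P) : Subgroup P) := by
      rw [← h2]
      exact Subgroup.card_dvd_of_le le_sup_left
    have h4 : Nat.card (F' ⊔ zpowers (⟨v, hv⟩ : P) : Subgroup P) ∣ 9 := by
      rw [← h9]
      exact Subgroup.card_subgroup_dvd_card _
    have h5 : Nat.card (F' ⊔ zpowers (⟨v, hv⟩ : P) : Subgroup P) ≠ 3 := by
      intro h5
      have h6 : F' = F' ⊔ zpowers (⟨v, hv⟩ : P) := Subgroup.eq_of_le_of_card_ge le_sup_left (by rw [h5, h2])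
      apply hvF
      have h7 : (⟨v, hv⟩ : P) ∈ F' := by
        rw [h6]
        exact mem_sup_right (mem_zpowers _)
      exact h7
    rw [h9]
    have h6 := Nat.le_of_dvd (by norm_num) h4
    generalize Nat.card (F' ⊔ zpowers (⟨v, hv⟩ : P) : Subgroup P) = n at *
    interval_cases n <;> omega
  obtain ⟨f, hf, y, hy, hfy⟩ := Subgroup.mem_sup_of_normal_left.1 (h1 ▸ mem_top (⟨p, hp⟩ : P))
  obtain ⟨k, rfl⟩ := mem_zpowers_iff.1 hy
  refine ⟨f, hf, k, ?_⟩
  have h2 := congrArg Subtype.val hfy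
  simpa using h2.symm

namespace Symp

variable {φ : Γ →* MulAut W} {B : W →* W →* A} (h : Symp φ B)
include h

/-- an element of order three acts on a nondegenerate plane as a transvection -/
theorem plane {x : Γ} (hx : x ^ 3 = 1) (P : Subgroup W) (h9 : Nat.card P = 9)
    (hnd : ∀ t ∈ P, (∀ t' ∈ P, B t t' = 1) → t = 1) (hP : ∀ t ∈ P, φ x t ∈ P) (hne : ∃ t ∈ P, φ x t ≠ t) :
    Nat.card (fixS P (φ x)) = 3 ∧ ∃ w ∈ P, φ x (φ x w * w⁻¹) = φ x w * w⁻¹ ∧ B w (φ x w * w⁻¹) ≠ 1 := by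
  have : Fact (Nat.Prime 3) := ⟨Nat.prime_three⟩
  have : Finite P := Nat.finite_of_card_ne_zero (by rw [h9]; norm_num)
  have h1 := fixS_modEq P (φ x) hP (p := 3) (fun t _ => by rw [← map_pow, hx, map_one]; rfl)
  have h2 := card_fixS_dvd P (φ x)
  have h3 : Nat.card (fixS P (φ x)) ≠ 9 := by
    intro h3
    obtain ⟨t, ht, hne⟩ := hne
    exact hne (fixS_eq_of_card (h3.trans h9.symm) t ht)
  have h4 : Nat.card (fixS P (φ x)) = 3 := by
    rw [h9] at h1 h2
    rw [Nat.ModEq] at h1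
    have h5 := Nat.le_of_dvd (by norm_num) h2
    generalize Nat.card (fixS P (φ x)) = n at *
    interval_cases n <;> omega
  refine ⟨h4, ?_⟩
  obtain ⟨w, hw, hwx⟩ := hne
  have hx3 : φ x (φ x (φ x w)) = w := by
    rw [← MulAut.mul_apply, ← MulAut.mul_apply, ← map_mul, ← map_mul]
    have : x * x * x = x ^ 3 := by rw [pow_succ, pow_two]
    rw [this, hx, map_one]
    rfl
  set u := φ x w * w⁻¹ with hu
  have huP : u ∈ P := mul_mem (hP w hw) (inv_mem hw)
  have hu1 : u ≠ 1 := fun h5 => hwx (mul_inv_eq_one.1 h5)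
  have hfix : φ x u = u := by
    by_contra hcon
    -- the next difference
    set v := φ x u * u⁻¹ with hv
    have hvF : v ∈ fixS P (φ x) := by
      refine ⟨mul_mem (hP u huP) (inv_mem huP), ?_⟩
      have h5 : φ x v = v * (w * (φ x w)⁻¹ ^ 0) * (w ^ 0)⁻¹ * w⁻¹ := by
        have h6 : φ x v * v⁻¹ = 1 := by
          have h7 : φ x v * v⁻¹ = φ x (φ x (φ x w)) * ((φ x (φ x w)) ^ 3)⁻¹ * (φ x w) ^ 3 * w⁻¹ := by
            simp only [hv, hu, map_mul, map_inv, mul_inv, inv_inv]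
            generalize φ x (φ x (φ x w)) = d
            generalize φ x (φ x w) = c
            generalize φ x w = b
            rw [pow_three, pow_three, mul_inv, mul_inv]
            generalize w⁻¹ = w'
            generalize hb' : b⁻¹ = b'
            generalize hc' : c⁻¹ = c'
            calc d * c' * (c' * b) * (c' * b * (b * w')) = d * c' * (c' * b) * (c' * b * (b * w')) := rfl
              _ = d * (c' * (c' * c')) * (b * (b * b)) * w' := by
                simp only [mul_comm, mul_left_comm]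
          rw [h7, hx3, h.cube, h.cube, inv_one, mul_one, mul_one, mul_inv_cancel]
        rw [mul_inv_eq_one.1 h6]
        simp
      rw [h5]
      simp
    have hv1 : v ≠ 1 := fun h5 => hcon (mul_inv_eq_one.1 h5)
    have huF : u ∉ fixS P (φ x) := fun h5 => hcon h5.2
    obtain ⟨f, hf, k, hfk⟩ := decomp_nine h9 fixS_le h4 huP huF (fun a _ b _ => mul_comm a b) hw
    have h5 : u = v ^ k := by
      have h6 : ∀ y : W, w = f * y ^ k → φ x w * w⁻¹ = (φ x y * y⁻¹) ^ k := by
        rintro y rfl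
        rw [map_mul, map_zpow, hf.2, mul_zpow, inv_zpow, mul_inv, mul_comm f, mul_comm f⁻¹, mul_assoc,
          mul_comm (y ^ k)⁻¹, mul_inv_cancel_left]
      exact h6 u hfk
    apply huF
    rw [h5]
    exact zpow_mem hvF k
  refine ⟨w, hw, hfix, fun hB => hu1 ?_⟩
  apply hnd u huP
  intro t ht
  have hwF : w ∉ fixS P (φ x) := fun h5 => hwx h5.2
  obtain ⟨f, hf, k, rfl⟩ := decomp_nine h9 fixS_le h4 hw hwF (fun a _ b _ => mul_comm a b) ht
  have h5 : (⟨f, hf⟩ : fixS P (φ x)) ∈ zpowers (⟨u, huP, hfix⟩ : fixS P (φ x)) :=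
    mem_zpowers_of_prime_card h4 (fun h6 => hu1 (congrArg Subtype.val h6))
  obtain ⟨j, hj⟩ := mem_zpowers_iff.1 h5
  have h6 : f = u ^ j := by
    have := congrArg Subtype.val hj
    rw [Subgroup.coe_zpow] at this
    exact this.symm
  rw [map_mul, h6, map_zpow, h.alt, one_zpow, one_mul, map_zpow, h.symm hB, one_zpow]

end Symp

end Cfsg.Agent.H342.SympLoc

namespace Cfsg.Agent.H342.Co2H

open Subgroup Cfsg.Agent.H342.SympLoc

variable {H W A : Type*} [Group H] [CommGroup W] [CommGroup A]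

namespace HHyp

variable {R : Subgroup H} {z : H} {φ : H →* MulAut W} {B : W →* W →* A} (h : HHyp R z φ B)
include h

/-- `a z` for a noncentral involution `a` -/
theorem inv_mul_z (a : Inv R z) : ∃ b : Inv R z, (b : H) = a * z ∧ Pl φ (b : H) = Mi φ (a : H) := by
  obtain ⟨a, haR, haa, ha1, haz⟩ := a
  refine ⟨⟨a * z, mul_mem haR h.zR, ?_, ?_, ?_⟩, rfl, ?_⟩
  · have h1 := h.zc a haR
    calc a * z * (a * z) = a * (z * a) * z := by group
      _ = (a * a) * (z * z) := by rw [← h1]; group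
      _ = 1 := by rw [haa, h.zz, one_mul]
  · intro h1
    apply haz
    have h2 : a = z⁻¹ := eq_inv_of_mul_eq_one_left h1
    rw [h2]
    exact inv_eq_of_mul_eq_one_left h.zz
  · intro h1
    exact ha1 (mul_eq_right.1 h1)
  · ext w
    rw [mem_Pl, mem_Mi]
    change φ (a * z) w = w ↔ φ a w = w⁻¹
    rw [map_mul, MulAut.mul_apply, h.z_inv, map_inv, inv_eq_iff_eq_inv]

/-- elements of order three in terms of two orthogonal planes -/
theorem three_pair {x : H} (hx : x ^ 3 = 1) (hx1 : x ≠ 1) :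
    Nat.card (Pl φ x) = 9 ∧ ∃ w₁ w₂ : W, φ x (φ x w₁ * w₁⁻¹) = φ x w₁ * w₁⁻¹ ∧ φ x (φ x w₂ * w₂⁻¹) = φ x w₂ * w₂⁻¹ ∧
      B w₁ (φ x w₁ * w₁⁻¹) ≠ 1 ∧ B w₂ (φ x w₂ * w₂⁻¹) ≠ 1 ∧ B w₁ w₂ = 1 ∧ B w₁ (φ x w₂ * w₂⁻¹) = 1 ∧
      B w₂ (φ x w₁ * w₁⁻¹) = 1 ∧ B (φ x w₁ * w₁⁻¹) (φ x w₂ * w₂⁻¹) = 1 := by
  have := h.symp.finite
  obtain ⟨a, hxa⟩ := h.exists_comm hx
  obtain ⟨b, hb, hPM⟩ := h.inv_mul_z a
  have hxb : x * (b : H) = b * x := by
    rw [hb, ← mul_assoc, hxa, mul_assoc, h.z_comm x, mul_assoc]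
  have h1 := h.nontriv hx hx1 a hxa
  have h2 := h.nontriv hx hx1 b hxb
  have haa := sq_act (φ := φ) a.2.2.1
  have h9 := h.proper a
  have hxP : ∀ t ∈ Pl φ (a : H), φ x t ∈ Pl φ (a : H) := by
    intro t ht
    rw [mem_Pl, ← MulAut.mul_apply, ← map_mul, ← hxa, map_mul, MulAut.mul_apply, mem_Pl.1 ht]
  have hxM : ∀ t ∈ Mi φ (a : H), φ x t ∈ Mi φ (a : H) := by
    intro t ht
    rw [mem_Mi, ← MulAut.mul_apply, ← map_mul, ← hxa, map_mul, MulAut.mul_apply, mem_Mi.1 ht, map_inv]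
  obtain ⟨h3, w₁, hw₁, h4, h5⟩ := h.symp.plane hx (Pl φ (a : H)) h9.1 (h.symp.nd_Pl haa) hxP h1
  rw [hPM] at h2
  obtain ⟨h6, w₂, hw₂, h7, h8⟩ := h.symp.plane hx (Mi φ (a : H)) h9.2 (h.symp.nd_Mi haa) hxM h2
  have hu₁ : φ x w₁ * w₁⁻¹ ∈ Pl φ (a : H) := mul_mem (hxP _ hw₁) (inv_mem hw₁)
  have hu₂ : φ x w₂ * w₂⁻¹ ∈ Mi φ (a : H) := mul_mem (hxM _ hw₂) (inv_mem hw₂)
  refine ⟨?_, w₁, w₂, h4, h7, h5, h8, h.symp.ortho hw₁ hw₂, h.symp.ortho hw₁ hu₂,
    h.symp.symm (h.symp.ortho hu₁ hw₂), h.symp.ortho hu₁ hu₂⟩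
  -- the number of fixed points
  have h10 : Nat.card (fixS (Pl φ (a : H)) (φ x) × fixS (Mi φ (a : H)) (φ x)) = 9 := by
    rw [Nat.card_prod, h3, h6]
  rw [← h10]
  symm
  refine Nat.card_congr (Equiv.ofBijective (fun y : fixS (Pl φ (a : H)) (φ x) × fixS (Mi φ (a : H)) (φ x) =>
    (⟨(y.1 : W) * y.2, by rw [mem_Pl, map_mul, y.1.2.2, y.2.2.2]⟩ : Pl φ x)) ⟨?_, ?_⟩)
  · rintro ⟨c, d⟩ ⟨c', d'⟩ hy
    have hy' : (c : W) * d = c' * d' := congrArg Subtype.val hy
    have e1 : (c' : W)⁻¹ * c = d' * (d : W)⁻¹ := by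
      rw [inv_mul_eq_iff_eq_mul, ← mul_assoc, ← hy', mul_inv_cancel_right]
    have e2 : (c' : W)⁻¹ * c ∈ Pl φ (a : H) := mul_mem (inv_mem c'.2.1) c.2.1
    have e3 : (c' : W)⁻¹ * c ∈ Mi φ (a : H) := e1 ▸ mul_mem d'.2.1 (inv_mem d.2.1)
    have e4 := h.symp.inter e2 e3
    rw [inv_mul_eq_one] at e4
    rw [← e4, mul_right_inj] at hy'
    exact Prod.ext (Subtype.ext e4.symm) (Subtype.ext hy')
  · rintro ⟨w, hw⟩
    obtain ⟨p, hp, m, hm, rfl⟩ := h.symp.decomp haa w
    rw [mem_Pl, map_mul] at hw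
    have e1 : p⁻¹ * φ x p = m * (φ x m)⁻¹ := by
      rw [inv_mul_eq_iff_eq_mul, ← mul_assoc, ← hw, mul_inv_cancel_right]
    have e2 : p⁻¹ * φ x p ∈ Pl φ (a : H) := mul_mem (inv_mem hp) (hxP p hp)
    have e3 : p⁻¹ * φ x p ∈ Mi φ (a : H) := e1 ▸ mul_mem hm (inv_mem (hxM m hm))
    have e4 := h.symp.inter e2 e3
    rw [inv_mul_eq_one] at e4
    have e5 : φ x m = m := by
      rw [← e4, mul_right_inj] at hw
      exact hw
    exact ⟨(⟨p, hp, e4.symm⟩, ⟨m, hm, e5⟩), rfl⟩

/-- the stabilizer of a vector in `R` -/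
theorem stab_le {w : W} (hw : w ≠ 1) (T : Subgroup H) (hT : ∀ t, t ∈ T ↔ t ∈ R ∧ φ t w = w) : Nat.card T ≤ 2 := by
  have := h.finite
  have hinv : ∀ t ∈ T, t ≠ 1 → t * t = 1 ∧ t ≠ z := by
    intro t ht ht1
    obtain ⟨htR, htw⟩ := (hT t).1 ht
    have hz : φ z w ≠ w := by
      rw [h.z_inv]
      exact fun h1 => hw (h.eq_one_of_inv h1.symm)
    constructor
    · rcases h.sq t htR with h1 | h1
      · exact h1
      · exfalso
        apply hz
        rw [← h1, map_mul, MulAut.mul_apply, htw, htw]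
    · rintro rfl
      exact hz htw
  by_contra hcon
  push Not at hcon
  -- two different nontrivial elements
  have h1 : ∃ a ∈ T, a ≠ 1 := by
    by_contra h1
    push Not at h1
    have : T = ⊥ := by
      rw [eq_bot_iff]
      exact fun t ht => h1 t ht
    rw [this, Subgroup.card_bot] at hcon
    omega
  obtain ⟨a, haT, ha1⟩ := h1
  have h2 : ∃ b ∈ T, b ≠ 1 ∧ b ≠ a := by
    by_contra h2
    push Not at h2
    have h3 : (T : Set H) ⊆ {1, a} := by
      intro t ht
      by_cases ht1 : t = 1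
      · left; exact ht1
      · right; exact h2 t ht ht1
    have h4 : (T : Set H).ncard ≤ ({1, a} : Set H).ncard := Set.ncard_le_ncard h3
    have h5 : ({1, a} : Set H).ncard ≤ 2 := Set.ncard_insert_le _ _ |>.trans (by rw [Set.ncard_singleton])
    have h6 : (T : Set H).ncard = Nat.card T := rfl
    omega
  obtain ⟨b, hbT, hb1, hba⟩ := h2
  obtain ⟨haR, haw⟩ := (hT a).1 haT
  obtain ⟨hbR, hbw⟩ := (hT b).1 hbT
  have h3 := h.disjoint ⟨a, haR, (hinv a haT ha1).1, ha1, (hinv a haT ha1).2⟩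
    ⟨b, hbR, (hinv b hbT hb1).1, hb1, (hinv b hbT hb1).2⟩ (mem_Pl.2 haw) (mem_Pl.2 hbw) hw
  exact hba (congrArg Subtype.val h3).symm

/-- **transitivity on the nonzero vectors** -/
theorem transitive {w w' : W} (hw : w ≠ 1) (hw' : w' ≠ 1) : ∃ g : H, φ g w = w' := by
  classical
  have := h.finite
  have := h.symp.finite
  have hn := h.normal
  let act : MulAction H W := MulAction.compHom W ((MulDistribMulAction.toMulAut (MulAut W) W).comp φ)
  have hact : ∀ (g : H) (v : W), g • v = φ g v := fun g v => rfl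
  -- the orbit
  have hO : MulAction.orbit H w ⊆ {v | v ≠ 1} := by
    rintro _ ⟨g, rfl⟩ h1
    change φ g w = 1 at h1
    exact hw ((map_eq_one_iff _ (φ g).injective).1 h1)
  have h80 : ({v : W | v ≠ 1} : Set W).ncard = 80 := by
    have h1 : ({v : W | v ≠ 1} : Set W) = ({1} : Set W)ᶜ := by
      ext v
      simp
    rw [h1, Set.ncard_compl, Set.ncard_singleton, h.symp.card]
  set St := MulAction.stabilizer H w with hSt
  have hmem : ∀ g, g ∈ St ↔ φ g w = w := fun g => MulAction.mem_stabilizer_iff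
  have hidx : (MulAction.orbit H w).ncard = St.index := MulAction.index_stabilizer H w |>.symm
  -- divisible by sixteen
  have h16 : 16 ∣ St.index := by
    have h1 : St.relIndex R ∣ St.index := by
      have h2 := Subgroup.relIndex_sup_right (H := St) (K := R)
      have hmul : ∀ {K M : Subgroup H}, K ≤ M → Nat.card K * K.relIndex M = Nat.card M := by
        intro K M hKM
        have h5 := Subgroup.relIndex_mul_relIndex (⊥ : Subgroup H) K M bot_le hKM
        rwa [Subgroup.relIndex_bot_left, Subgroup.relIndex_bot_left] at h5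
      have e1 := hmul (inf_le_left : St ⊓ R ≤ St)
      have e2 := hmul (inf_le_right : St ⊓ R ≤ R)
      have e3 := hmul (le_sup_right : R ≤ St ⊔ R)
      rw [Subgroup.inf_relIndex_left] at e1
      rw [Subgroup.inf_relIndex_right] at e2
      rw [h2] at e3
      have e4 := Subgroup.card_mul_index (St ⊔ R)
      have e5 := Subgroup.card_mul_index St
      refine ⟨(St ⊔ R).index, ?_⟩
      have e6 : 0 < Nat.card St := Nat.card_pos
      apply Nat.eq_of_mul_eq_mul_left e6
      rw [e5, ← e4, ← e3, ← e2]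
      rw [← e1]
      ring
    refine dvd_trans ?_ h1
    have h3 : Nat.card (St ⊓ R : Subgroup H) ≤ 2 := h.stab_le hw _ (fun t => by
      rw [Subgroup.mem_inf, hmem]
      exact and_comm)
    have h4 : Nat.card (St ⊓ R : Subgroup H) * St.relIndex R = 32 := by
      rw [← Subgroup.inf_relIndex_right, ← h.cardR]
      have h5 := Subgroup.relIndex_mul_relIndex (⊥ : Subgroup H) (St ⊓ R) R bot_le inf_le_right
      rwa [Subgroup.relIndex_bot_left, Subgroup.relIndex_bot_left] at h5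
    have h6 : 0 < Nat.card (St ⊓ R : Subgroup H) := Nat.card_pos
    generalize Nat.card (St ⊓ R : Subgroup H) = n at *
    generalize St.relIndex R = m at *
    interval_cases n <;> omega
  -- divisible by five
  have h5 : 5 ∣ St.index := by
    by_contra hcon
    have : Fact (Nat.Prime 5) := ⟨Nat.prime_five⟩
    have h1 : 5 ∣ Nat.card St := by
      have h2 : Nat.card St * St.index = 1920 := by rw [Subgroup.card_mul_index, h.cardH]
      have h3 : 5 ∣ Nat.card St * St.index := by rw [h2]; norm_num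
      exact ((Nat.Prime.dvd_mul Nat.prime_five).1 h3).resolve_right hcon
    obtain ⟨f, hf⟩ := exists_prime_orderOf_dvd_card' 5 h1
    have hf5 : (f : H) ^ 5 = 1 := by
      have := pow_orderOf_eq_one f
      rw [hf] at this
      exact congrArg Subtype.val this
    have hf1 : (f : H) ≠ 1 := by
      intro h2
      have h3 : f = 1 := Subtype.ext h2
      rw [h3, orderOf_one] at hf
      omega
    apply hf1
    apply h.faithful
    have h2 := fixS_modEq (⊤ : Subgroup W) (φ (f : H)) (fun t _ => mem_top _) (p := 5)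
      (fun t _ => by rw [← map_pow, hf5, map_one]; rfl)
    have h3 := card_fixS_dvd (⊤ : Subgroup W) (φ (f : H))
    have h4 : w ∈ fixS (⊤ : Subgroup W) (φ (f : H)) := ⟨mem_top _, (hmem _).1 f.2⟩
    have h6 : Nat.card (fixS (⊤ : Subgroup W) (φ (f : H))) ≠ 1 := by
      intro h6
      have h7 := Subgroup.eq_bot_of_card_eq _ h6
      rw [h7, mem_bot] at h4
      exact hw h4
    have h7 : Nat.card (fixS (⊤ : Subgroup W) (φ (f : H))) = Nat.card (⊤ : Subgroup W) := by
      rw [Subgroup.card_top, h.symp.card] at h2 h3 ⊢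
      rw [Nat.ModEq] at h2
      have h8 := Nat.le_of_dvd (by norm_num) h3
      generalize Nat.card (fixS (⊤ : Subgroup W) (φ (f : H))) = n at *
      have h9 : n ∈ Nat.divisors 81 := Nat.mem_divisors.2 ⟨h3, by norm_num⟩
      have h10 : Nat.divisors 81 = {1, 3, 9, 27, 81} := by decide +kernel
      rw [h10] at h9
      simp only [Finset.mem_insert, Finset.mem_singleton] at h9
      rcases h9 with h9 | h9 | h9 | h9 | h9
      · exact absurd h9 h6
      · rw [h9] at h2; omega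
      · rw [h9] at h2; omega
      · rw [h9] at h2; omega
      · exact h9
    intro v
    exact fixS_eq_of_card h7 v (mem_top _)
  have h80' : 80 ∣ St.index := (Nat.Coprime.mul_dvd_of_dvd_of_dvd (by norm_num) h16 h5 : 16 * 5 ∣ _)
  have hle : (MulAction.orbit H w).ncard ≤ 80 := by
    rw [← h80]
    exact Set.ncard_le_ncard hO
  have heq : MulAction.orbit H w = {v | v ≠ 1} := by
    apply Set.eq_of_subset_of_ncard_le hO
    rw [h80, hidx]
    refine Nat.le_of_dvd ?_ h80'
    exact Nat.pos_of_ne_zero Subgroup.index_ne_zero_of_finite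
  have h1 : w' ∈ MulAction.orbit H w := by
    rw [heq]
    exact hw'
  obtain ⟨g, hg⟩ := h1
  exact ⟨g, hg⟩

end HHyp

end Cfsg.Agent.H342.Co2H
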