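import Mathlib
import Cfsg.Agent.H342.S6Loc
import Cfsg.Agent.Lib.MinNormalNonabelian

/-!
# Reduction to a simple normal subgroup for the `3`-local characterization of `Sym(6)` (S3333)

* `exists_ctx`: the hypotheses of S3333 give the set-up `S6Loc.Ctx`;
* `exists_simple`: if `S` is not normal in `G` then `G` has a simple normal subgroup `K` with `S ≤ K` and `C_G(K) = 1`.
-/

set_option autoImplicit false

namespace Cfsg.Agent.H342.S6Red

open Subgroup Cfsg.Agent.H342.S6Loc

variable {G : Type*} [Group G]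

theorem exists_ctx [Finite G] (S : Subgroup G) (hcard : Nat.card S = 9)
    (hC : Subgroup.centralizer (S : Set G) = S)
    (eN : Subgroup.normalizer (S : Set G) ⧸ S.subgroupOf (Subgroup.normalizer (S : Set G)) ≃* DihedralGroup 4)
    (hcent : ∀ x ∈ S, x ≠ 1 → Subgroup.centralizer ({x} : Set G) ≤ Subgroup.normalizer (S : Set G)) :
    ∃ (τ : DihedralGroup 4 →* G) (π : normalizer (S : Set G) →* DihedralGroup 4), Ctx S τ π := by
  set N := normalizer (S : Set G) with hN
  set S' : Subgroup N := S.subgroupOf N with hS'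
  have hSN : S ≤ N := le_normalizer
  have hcS : Nat.card S' = 9 := by
    rw [← hcard]
    exact Nat.card_congr (subgroupOfEquivOfLe hSN).toEquiv
  have hidx : S'.index = 8 := by
    have h1 : S'.index = Nat.card (N ⧸ S') := rfl
    rw [h1, Nat.card_congr eN.toEquiv, DihedralGroup.nat_card]
  obtain ⟨T, hT⟩ := exists_right_complement'_of_coprime (N := S') (by rw [hcS, hidx]; norm_num)
  let π : N →* DihedralGroup 4 := eN.toMonoidHom.comp (QuotientGroup.mk' S')
  have hker : ∀ n : N, π n = 1 ↔ (n : G) ∈ S := by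
    intro n
    change eN (n : N ⧸ S') = 1 ↔ _
    rw [eN.map_eq_one_iff, QuotientGroup.eq_one_iff, hS', mem_subgroupOf]
  -- the restriction of `π` to the complement is bijective
  have hinj : Function.Injective (π.comp T.subtype) := by
    rw [injective_iff_map_eq_one]
    intro t ht
    have h1 : (t : N) ∈ S' := by
      rw [hS', mem_subgroupOf]
      exact (hker t).1 ht
    have h2 : (t : N) ∈ S' ⊓ T := mem_inf.2 ⟨h1, t.2⟩
    rw [hT.disjoint.eq_bot] at h2
    exact Subtype.ext (mem_bot.1 h2)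
  have hcT : Nat.card T = 8 := by
    have h1 := hT.card_mul_card
    have h2 := S'.card_mul_index
    rw [hidx, ← h1, hcS] at h2
    omega
  have hbij : Function.Bijective (π.comp T.subtype) :=
    (Nat.bijective_iff_injective_and_card _).2 ⟨hinj, by rw [hcT, DihedralGroup.nat_card]⟩
  let e : T ≃* DihedralGroup 4 := MulEquiv.ofBijective (π.comp T.subtype) hbij
  let τ : DihedralGroup 4 →* G := (N.subtype.comp T.subtype).comp e.symm.toMonoidHom
  have hτN : ∀ d, τ d ∈ N := fun d => ((e.symm d : T) : N).2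
  refine ⟨τ, π, ⟨hcard, hC, hcent, hτN, ?_, hker⟩⟩
  intro d
  have h1 : (⟨τ d, hτN d⟩ : N) = ((e.symm d : T) : N) := rfl
  rw [h1]
  exact e.apply_symm_apply d

/-- conjugates of elements of order three of `G` -/
theorem exists_conj_mem [Finite G] (P : Sylow 3 G) {S : Subgroup G} (hSP : S = P) {x : G} (hx : orderOf x = 3) :
    ∃ g : G, g * x * g⁻¹ ∈ S := by
  have : Fact (Nat.Prime 3) := ⟨Nat.prime_three⟩
  have hp : IsPGroup 3 (zpowers x) := IsPGroup.of_card (n := 1) (by rw [Nat.card_zpowers, hx, pow_one])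
  obtain ⟨Q, hQ⟩ := hp.exists_le_sylow
  obtain ⟨g, hg⟩ := MulAction.exists_smul_eq G Q P
  refine ⟨g, ?_⟩
  rw [hSP]
  change g * x * g⁻¹ ∈ P
  rw [← hg]
  exact ⟨x, hQ (mem_zpowers x), rfl⟩

variable {S : Subgroup G} {τ : DihedralGroup 4 →* G} {π : normalizer (S : Set G) →* DihedralGroup 4}

/-- a normal subgroup of order divisible by three contains `S` -/
theorem le_of_normal [Finite G] (h : Ctx S τ π) (P : Sylow 3 G) (hSP : S = P) (M : Subgroup G) [hM : M.Normal]
    (h3 : 3 ∣ Nat.card M) : S ≤ M := by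
  have : Fact (Nat.Prime 3) := ⟨Nat.prime_three⟩
  obtain ⟨x, hx⟩ := exists_prime_orderOf_dvd_card' (G := M) 3 h3
  have hx' : orderOf (x : G) = 3 := by rw [← hx]; exact orderOf_coe x
  obtain ⟨g, hg⟩ := exists_conj_mem P hSP hx'
  set y := g * (x : G) * g⁻¹ with hy
  have hyM : y ∈ M := hM.conj_mem _ x.2 g
  have hy1 : y ≠ 1 := by
    intro h1
    rw [hy, mul_inv_eq_one, mul_eq_left] at h1
    rw [h1, orderOf_one] at hx'
    omega
  have hoy : orderOf y = 3 := orderOf_eq_prime (h.cube hg) hy1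
  by_contra hle
  -- the intersection is `⟨y⟩`
  have h1 : ∀ z ∈ S, z ∈ M → z ∈ zpowers y := by
    intro z hz hzM
    by_contra hzy
    apply hle
    intro s hs
    obtain ⟨i, -, j, -, rfl⟩ := h.coords hg hy1 hz hzy hs
    exact mul_mem (pow_mem hyM _) (pow_mem hzM _)
  refine h.irred hg hy1 fun d => h1 _ (Ctx.conj_mem (h.τN d) hg) (hM.conj_mem _ hyM _)

/-- the normalizer of `S` is solvable -/
theorem solvable_normalizer (h : Ctx S τ π) : Group.IsSolvable (normalizer (S : Set G)) := by
  have h1 : π.ker = S.subgroupOf (normalizer (S : Set G)) := by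
    ext n
    rw [MonoidHom.mem_ker, h.ker, mem_subgroupOf]
  rw [Group.isSolvable_iff_subgroup_quotient π.ker]
  constructor
  · refine Group.isSolvable_of_comm fun a b => Subtype.ext (Subtype.ext ?_)
    have ha : ((a : normalizer (S : Set G)) : G) ∈ S := (h.ker _).1 a.2
    have hb : ((b : normalizer (S : Set G)) : G) ∈ S := (h.ker _).1 b.2
    exact h.comm ha hb
  · have : Fact (Nat.Prime 2) := ⟨Nat.prime_two⟩
    have hp : IsPGroup 2 (DihedralGroup 4) := IsPGroup.of_card (n := 3) (by rw [DihedralGroup.nat_card]; norm_num)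
    have : Group.IsNilpotent (DihedralGroup 4) := hp.isNilpotent
    have hs : Group.IsSolvable (DihedralGroup 4) := inferInstance
    exact Group.isSolvable_of_isSolvable_injective (f := QuotientGroup.kerLift π) (QuotientGroup.kerLift_injective π)

/-- **reduction to a simple normal subgroup** -/
theorem exists_simple [Finite G] (h : Ctx S τ π) (P : Sylow 3 G) (hSP : S = P) (hn : ¬ S.Normal) :
    ∃ K : Subgroup G, K.Normal ∧ IsSimpleGroup K ∧ (¬ ∀ x ∈ K, ∀ y ∈ K, x * y = y * x) ∧ S ≤ K ∧
      centralizer (K : Set G) = ⊥ := by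
  have : Fact (Nat.Prime 3) := ⟨Nat.prime_three⟩
  have hSne : S ≠ ⊥ := by
    intro h1
    have h2 := h.card
    rw [h1, Subgroup.card_bot] at h2
    omega
  -- a minimal normal subgroup
  have hfin : {T : Subgroup G | T ≠ ⊥ ∧ T.Normal}.Finite := Set.toFinite _
  have hne : {T : Subgroup G | T ≠ ⊥ ∧ T.Normal}.Nonempty := by
    refine ⟨⊤, fun h1 => hSne (le_bot_iff.1 ?_), inferInstance⟩
    rw [← h1]; exact le_top
  obtain ⟨K, ⟨hK0, hKn⟩, hKmin⟩ := hfin.exists_minimal hne
  have hmin : ∀ M : Subgroup G, M.Normal → M ≤ K → M = ⊥ ∨ M = K := by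
    intro M hM hMK
    by_cases hM0 : M = ⊥
    · exact Or.inl hM0
    · exact Or.inr (le_antisymm hMK (hKmin ⟨hM0, hM⟩ hMK))
  have h3 : 3 ∣ Nat.card K := by
    by_contra h3
    exact hK0 (h.eq_bot_of_coprime h3 (le_trans le_top (le_of_eq (normalizer_eq_top K).symm)))
  have hSK : S ≤ K := le_of_normal h P hSP K h3
  have hna : ¬ ∀ x ∈ K, ∀ y ∈ K, Commute x y := by
    intro hab
    obtain ⟨p, hp, hpK, -⟩ := Cfsg.Agent.Lib.MinNormalNonabelian.abelian_structure K hK0 hmin hab
    have : Fact p.Prime := ⟨hp⟩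
    obtain ⟨n, hn'⟩ := IsPGroup.iff_card.1 hpK
    have hp3 : p = 3 := by
      rw [hn'] at h3
      exact ((Nat.prime_dvd_prime_iff_eq Nat.prime_three hp).1 (Nat.prime_three.dvd_of_dvd_pow h3)).symm
    subst hp3
    have h4 : K = S := by
      rw [hSP]
      have h5 : (P : Subgroup G) ≤ K := hSP ▸ hSK
      exact P.is_maximal' hpK h5
    exact hn (h4 ▸ hKn)
  obtain ⟨-, hind, hsup, hsimple, hcen, hconj⟩ :=
    Cfsg.Agent.Lib.MinNormalNonabelian.nonabelian_structure K hmin hna
  obtain ⟨T, hTK, hT0, hTn, hTmin⟩ := Cfsg.Agent.Lib.MinNormal.exists_minimal_normal_le K hK0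
  have hTmem : T ∈ Cfsg.Agent.Lib.MinNormalNonabelian.minSet K := ⟨hTK, hT0, hTn, hTmin⟩
  have hnaT : ∀ T ∈ Cfsg.Agent.Lib.MinNormalNonabelian.minSet K, ¬ ∀ x ∈ T, ∀ y ∈ T, x * y = y * x := by
    intro T hT hc
    apply hT.2.1
    rw [eq_bot_iff_forall]
    intro x hx
    exact hcen T hT x hx fun t ht => hc x hx t ht
  have hd3 : ∀ T ∈ Cfsg.Agent.Lib.MinNormalNonabelian.minSet K, 3 ∣ Nat.card T := by
    intro T hT
    by_contra h4
    exact hT.2.1 (h.eq_bot_of_coprime h4 (hSK.trans hT.2.2.1))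
  -- there is only one
  have huniq : ∀ U ∈ Cfsg.Agent.Lib.MinNormalNonabelian.minSet K, U = T := by
    intro U hU
    by_contra hUT
    obtain ⟨x, hx⟩ := exists_prime_orderOf_dvd_card' (G := T) 3 (hd3 T hTmem)
    have hx' : orderOf (x : G) = 3 := by rw [← hx]; exact orderOf_coe x
    obtain ⟨g, hg⟩ := exists_conj_mem P hSP hx'
    have hg1 : g * (x : G) * g⁻¹ ≠ 1 := by
      intro h1
      rw [mul_inv_eq_one, mul_eq_left] at h1
      rw [h1, orderOf_one] at hx'
      omega
    have h5 : ∀ u ∈ U, g * u * g⁻¹ ∈ normalizer (S : Set G) := by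
      intro u hu
      apply h.cle _ hg hg1
      rw [mem_centralizer_singleton_iff]
      have h6 : Commute u (x : G) := Cfsg.Agent.Lib.MinNormal.commute_of_mem hind (fun V hV => hV.2.2.1)
        (fun V hV => hV.1) hU hTmem hUT hu x.2
      calc g * u * g⁻¹ * (g * x * g⁻¹) = g * (u * x) * g⁻¹ := by group
        _ = g * x * g⁻¹ * (g * u * g⁻¹) := by rw [h6.eq]; group
    have hsolv : Group.IsSolvable U := by
      have := solvable_normalizer h
      let f : U →* normalizer (S : Set G) :=
        { toFun := fun u => ⟨g * u * g⁻¹, h5 u u.2⟩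
          map_one' := Subtype.ext (by simp)
          map_mul' := fun a b => Subtype.ext (by simp [mul_assoc]) }
      refine Group.isSolvable_of_isSolvable_injective (f := f) ?_
      intro a b hab
      have h7 : g * (a : G) * g⁻¹ = g * b * g⁻¹ := congrArg Subtype.val hab
      rw [mul_left_inj, mul_right_inj] at h7
      exact Subtype.ext h7
    have := hsimple U hU
    apply hnaT U hU
    have hcomm := IsSimpleGroup.comm_iff_isSolvable.2 hsolv
    intro a ha b hb
    exact congrArg Subtype.val (hcomm ⟨a, ha⟩ ⟨b, hb⟩)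
  have hTeq : T = K := by
    apply le_antisymm hTK
    rw [← hsup]
    exact sSup_le fun U hU => (huniq U hU).le
  rw [hTeq] at hTmem
  refine ⟨K, hKn, hsimple K hTmem, hnaT K hTmem, hSK, ?_⟩
  -- the centralizer
  have hCle : centralizer (K : Set G) ≤ S := by
    refine le_trans ?_ (le_of_eq h.cent)
    exact centralizer_le hSK
  have : (centralizer (K : Set G)).Normal := inferInstance
  rw [eq_bot_iff_forall]
  intro x hx
  exact hcen K hTmem x (hSK (hCle hx)) fun t ht => (mem_centralizer_iff.1 hx t ht).symm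

end Cfsg.Agent.H342.S6Red
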